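import Cfsg.Agent.Chars.FrobSchur.Basic
import Mathlib.Analysis.Complex.Order
import Mathlib.LinearAlgebra.Trace
import Mathlib.LinearAlgebra.Basis.VectorSpace

/-!
# Indicator one means realisable over the reals
-/

set_option autoImplicit false

namespace CfsgLib.FrobSchur

open Matrix Cfsg
open scoped ComplexConjugate ComplexOrder

variable {G : Type*} [Group G] [Fintype G] {n : ℕ}

theorem exists_real_rep (ρ : Representation ℂ G (Fin n → ℂ)) (hρ : ρ.IsIrreducible)
    (h1 : indicator ρ.character = 1) :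
    ∃ (m : ℕ) (σ : Representation ℝ G (Fin m → ℝ)),
      ∀ g : G, ((LinearMap.trace ℝ (Fin m → ℝ) (σ g) : ℝ) : ℂ) = ρ.character g := by
  have hreal : ∀ g, (ρ.character g).im = 0 := by
    intro g
    by_contra hg
    rw [(indicator_eq_zero_iff hρ).2 ⟨g, hg⟩] at h1
    exact zero_ne_one h1
  obtain ⟨M, h0, hM⟩ := exists_invariant_matrix hρ hreal
  have hsym : Mᵀ = M := by rw [transpose_eq_indicator_smul hρ hM, h1, one_smul]
  set X := mat ρ with hX
  have hirr := matIrr_mat ρ hρ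
  have hMu : IsUnit M := form_isUnit hirr hM h0
  set H := herm X
  have hH : H.PosDef := herm_posDef X
  have hHu : IsUnit H.det := (Matrix.isUnit_iff_isUnit_det _).1 hH.isUnit
  have hs : ∀ (A : Matrix (Fin n) (Fin n) ℂ) (w : Fin n → ℂ),
      star (A *ᵥ w) = A.map star *ᵥ star w := by
    intro A w; funext i; simp [Matrix.mulVec, dotProduct, star_sum]
  let J : (Fin n → ℂ) → (Fin n → ℂ) := fun v => H⁻¹ *ᵥ star (M *ᵥ v)
  have hJX : ∀ g v, J (X g *ᵥ v) = X g *ᵥ J v := by
    intro g v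
    have e : H⁻¹ * (X g⁻¹)ᴴ = X g * H⁻¹ := by
      calc H⁻¹ * (X g⁻¹)ᴴ = H⁻¹ * ((X g⁻¹)ᴴ * H) * H⁻¹ := by
            rw [Matrix.mul_assoc, Matrix.mul_assoc, Matrix.mul_nonsing_inv _ hHu, Matrix.mul_one]
        _ = X g * H⁻¹ := by
            rw [← herm_mul, ← Matrix.mul_assoc, Matrix.nonsing_inv_mul _ hHu, Matrix.one_mul]
    show H⁻¹ *ᵥ star (M *ᵥ (X g *ᵥ v)) = X g *ᵥ (H⁻¹ *ᵥ star (M *ᵥ v))
    rw [Matrix.mulVec_mulVec _ M (X g), form_mul hM, ← Matrix.mulVec_mulVec, hs,
      show ((X g⁻¹)ᵀ).map star = (X g⁻¹)ᴴ from rfl, Matrix.mulVec_mulVec, Matrix.mulVec_mulVec, e]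
  have hJadd : ∀ v w, J (v + w) = J v + J w := fun v w => by
    simp [J, Matrix.mulVec_add, star_add]
  have hJsmul : ∀ (a : ℂ) v, J (a • v) = conj a • J v := fun a v => by
    simp [J, Matrix.mulVec_smul, star_smul]
  let Q : Matrix (Fin n) (Fin n) ℂ := H⁻¹ * M.map star * (H⁻¹).map star * M
  have hQ : ∀ v, J (J v) = Q *ᵥ v := by
    intro v
    show H⁻¹ *ᵥ star (M *ᵥ (H⁻¹ *ᵥ star (M *ᵥ v))) = Q *ᵥ v
    rw [hs M (H⁻¹ *ᵥ star (M *ᵥ v)), hs H⁻¹ (star (M *ᵥ v)), star_star]
    simp only [Q, Matrix.mulVec_mulVec, Matrix.mul_assoc]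
  obtain ⟨c, hc⟩ := schur hirr (A := Q) (fun g => Matrix.ext_of_mulVec_single fun i => by
    calc (Q * X g) *ᵥ Pi.single i 1 = Q *ᵥ (X g *ᵥ Pi.single i 1) :=
          (Matrix.mulVec_mulVec _ Q (X g)).symm
      _ = X g *ᵥ (Q *ᵥ Pi.single i 1) := by rw [← hQ, ← hQ, hJX, hJX]
      _ = (X g * Q) *ᵥ Pi.single i 1 := Matrix.mulVec_mulVec _ _ _)
  have hQc : ∀ v, J (J v) = c • v := fun v => by
    rw [hQ, hc, Matrix.smul_mulVec, Matrix.one_mulVec]
  -- positivity of `c`
  obtain ⟨v, hv⟩ : ∃ v : Fin n → ℂ, v ≠ 0 := by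
    haveI := hirr.1
    exact exists_ne 0
  have hJne : J v ≠ 0 := by
    intro e
    have e1 : star (M *ᵥ v) = 0 := by
      have := congrArg (fun w => H *ᵥ w) e
      simpa [J, Matrix.mulVec_mulVec, Matrix.mul_nonsing_inv _ hHu] using this
    rw [star_eq_zero] at e1
    exact hv ((Matrix.mulVec_injective_iff_isUnit.2 hMu) (e1.trans (Matrix.mulVec_zero M).symm))
  have hHJ : ∀ w, H *ᵥ J w = star (M *ᵥ w) := fun w => by
    simp [J, Matrix.mulVec_mulVec, Matrix.mul_nonsing_inv _ hHu]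
  have ha := hH.dotProduct_mulVec_pos hJne
  have hb := hH.dotProduct_mulVec_pos hv
  have hab : star (J v) ⬝ᵥ (H *ᵥ J v) = c * (star v ⬝ᵥ (H *ᵥ v)) := by
    have e1 : star v ⬝ᵥ (H *ᵥ J (J v)) = c * (star v ⬝ᵥ (H *ᵥ v)) := by
      rw [hQc, Matrix.mulVec_smul, dotProduct_smul, smul_eq_mul]
    have e2 : (M *ᵥ J v) ⬝ᵥ v = (M *ᵥ v) ⬝ᵥ J v := by
      rw [dotProduct_comm (M *ᵥ v) (J v), Matrix.dotProduct_mulVec, ← Matrix.mulVec_transpose, hsym]
    rw [← e1, hHJ (J v), hHJ v, star_dotProduct_star, star_dotProduct_star, e2]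
  have hcpos : 0 < c := by
    have e : c = (star (J v) ⬝ᵥ (H *ᵥ J v)) * (star v ⬝ᵥ (H *ᵥ v))⁻¹ := by
      rw [hab, mul_assoc, mul_inv_cancel₀ hb.ne', mul_one]
    rw [Complex.pos_iff] at ha hb ⊢
    rw [e]
    simp only [Complex.mul_re, Complex.mul_im, Complex.inv_re, Complex.inv_im, ← ha.2, ← hb.2,
      neg_zero, zero_div, mul_zero, zero_mul, sub_zero, add_zero]
    refine ⟨mul_pos ha.1 (div_pos hb.1 ?_), trivial⟩
    rw [Complex.normSq_apply, ← hb.2, mul_zero, add_zero]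
    exact mul_pos hb.1 hb.1
  rw [Complex.pos_iff] at hcpos
  set r : ℂ := (((Real.sqrt c.re)⁻¹ : ℝ) : ℂ) with hr
  let K : (Fin n → ℂ) → (Fin n → ℂ) := fun w => r • J w
  have hrr : r * r * c = 1 := by
    have hcc : c = (c.re : ℂ) := Complex.ext rfl (by simp [← hcpos.2])
    rw [hcc, ← Complex.ofReal_mul, ← Complex.ofReal_mul, Complex.ofReal_eq_one]
    rw [← mul_inv, Real.mul_self_sqrt hcpos.1.le, inv_mul_cancel₀ hcpos.1.ne']
  have hKK : ∀ w, K (K w) = w := fun w => by
    simp only [K, hJsmul, hQc, smul_smul, r, Complex.conj_ofReal]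
    rw [← mul_assoc, hrr, one_smul]
  have hKX : ∀ g w, K (X g *ᵥ w) = X g *ᵥ K w := fun g w => by
    simp only [K, hJX, Matrix.mulVec_smul]
  have hKadd : ∀ v w, K (v + w) = K v + K w := fun v w => by simp only [K, hJadd, smul_add]
  have hKsmul : ∀ (a : ℂ) w, K (a • w) = conj a • K w := fun a w => by
    simp only [K, hJsmul, smul_smul, mul_comm]
  have hK0 : K 0 = 0 := by simp [K, J]
  have hKsum : ∀ {ι : Type} (s : Finset ι) (f : ι → Fin n → ℂ), K (∑ i ∈ s, f i) = ∑ i ∈ s, K (f i) :=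
    fun s f => map_sum (⟨⟨K, hK0⟩, hKadd⟩ : (Fin n → ℂ) →+ (Fin n → ℂ)) f s
  let F : Set (Fin n → ℂ) := {w | K w = w}
  have hspan : ⊤ ≤ Submodule.span ℂ F := by
    intro w _
    have h1 : w + K w ∈ F := by
      show K (w + K w) = _
      rw [hKadd, hKK, add_comm]
    have h2 : Complex.I • (w - K w) ∈ F := by
      show K (Complex.I • (w - K w)) = _
      rw [hKsmul, sub_eq_add_neg, hKadd, ← neg_one_smul ℂ (K w), hKsmul, hKK, Complex.conj_I]
      simp only [map_neg, map_one, neg_smul, one_smul, smul_add, smul_neg]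
      abel
    have e : w = (1 / 2 : ℂ) • (w + K w) + (-Complex.I / 2) • (Complex.I • (w - K w)) := by
      funext i
      simp only [Pi.add_apply, Pi.smul_apply, Pi.sub_apply, smul_eq_mul]
      linear_combination -(w i - K w i) / 2 * Complex.I_mul_I.symm
    rw [e]
    exact add_mem (Submodule.smul_mem _ _ (Submodule.subset_span h1))
      (Submodule.smul_mem _ _ (Submodule.subset_span h2))
  obtain ⟨m, b', hbF⟩ : ∃ (m : ℕ) (b' : Module.Basis (Fin m) ℂ (Fin n → ℂ)),
      ∀ i, K (b' i) = b' i := by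
    let b := Module.Basis.ofSpan hspan
    haveI : Fintype _ := FiniteDimensional.fintypeBasisIndex b
    refine ⟨_, b.reindex (Fintype.equivFin _), fun i => ?_⟩
    have h : (b.reindex (Fintype.equivFin _)) i ∈ F := by
      rw [Module.Basis.reindex_apply]
      exact Module.Basis.ofSpan_subset hspan ⟨_, rfl⟩
    exact h
  have hreprK : ∀ w, K w = w → ∀ i, conj (b'.repr w i) = b'.repr w i := by
    intro w hw i
    have e : K w = ∑ j, conj (b'.repr w j) • b' j := by
      conv_lhs => rw [← b'.sum_repr w]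
      rw [hKsum]
      simp only [hKsmul, hbF]
    rw [hw] at e
    conv_rhs => rw [e, Module.Basis.repr_sum_self]
  have hent : ∀ g i j, ((LinearMap.toMatrixAlgEquiv b' (ρ g) i j).re : ℂ) =
      LinearMap.toMatrixAlgEquiv b' (ρ g) i j := by
    intro g i j
    rw [LinearMap.toMatrixAlgEquiv_apply]
    apply Complex.conj_eq_iff_re.1
    apply hreprK
    rw [← mat_mulVec, hKX, hbF]
  have hmap : ∀ g, ((LinearMap.toMatrixAlgEquiv b' (ρ g)).map Complex.re).map (fun a : ℝ => (a : ℂ)) =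
      LinearMap.toMatrixAlgEquiv b' (ρ g) := fun g => by
    ext i j; simp only [Matrix.map_apply]; exact hent g i j
  have hinj : ∀ A B : Matrix (Fin m) (Fin m) ℝ,
      A.map (fun a : ℝ => (a : ℂ)) = B.map (fun a : ℝ => (a : ℂ)) → A = B := fun A B e => by
    ext i j
    exact Complex.ofReal_injective (congrFun (congrFun e i) j)
  let σ : Representation ℝ G (Fin m → ℝ) :=
    { toFun := fun g => Matrix.toLinAlgEquiv' ((LinearMap.toMatrixAlgEquiv b' (ρ g)).map Complex.re)
      map_one' := by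
        rw [map_one, map_one, Matrix.map_one _ Complex.zero_re Complex.one_re, map_one]
      map_mul' := fun g h => by
        rw [← map_mul]
        congr 1
        apply hinj
        show ((LinearMap.toMatrixAlgEquiv b' (ρ (g * h))).map Complex.re).map _ =
          (_ * _ : Matrix _ _ ℝ).map Complex.ofRealHom
        rw [hmap, Matrix.map_mul, map_mul, map_mul]
        congr 1 <;> exact (hmap _).symm }
  refine ⟨_, σ, fun g => ?_⟩
  show ((LinearMap.trace ℝ _ (Matrix.toLin' ((LinearMap.toMatrixAlgEquiv b' (ρ g)).map Complex.re)) : ℝ) : ℂ) = _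
  rw [Matrix.trace_toLin'_eq, Representation.character, LinearMap.trace_eq_matrix_trace ℂ b']
  simp only [Matrix.trace, Matrix.diag_apply, Matrix.map_apply, Complex.ofReal_sum]
  exact Finset.sum_congr rfl fun i _ => hent g i i

theorem indicator_eq_one_of_real_rep (ρ : Representation ℂ G (Fin n → ℂ)) (hρ : ρ.IsIrreducible)
    {m : ℕ} (σ : Representation ℝ G (Fin m → ℝ))
    (h : ∀ g : G, ((LinearMap.trace ℝ (Fin m → ℝ) (σ g) : ℝ) : ℂ) = ρ.character g) :
    indicator ρ.character = 1 := by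
  let Y : G →* Matrix (Fin m) (Fin m) ℂ :=
    (Complex.ofRealHom.mapMatrix.toMonoidHom.comp
      (LinearMap.toMatrixAlgEquiv' (R := ℝ)).toAlgHom.toMonoidHom).comp σ
  have hY : ∀ g, Y g = (LinearMap.toMatrix' (σ g)).map Complex.ofRealHom := fun _ => rfl
  have htr : ∀ g, (Y g).trace = ρ.character g := fun g => by
    rw [← h g, LinearMap.trace_eq_matrix_trace ℝ (Pi.basisFun ℝ (Fin m)), hY]
    exact (AddMonoidHom.map_trace Complex.ofRealHom.toAddMonoidHom (LinearMap.toMatrix' (σ g))).symm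
  have hre : ∀ g, (ρ.character g).im = 0 := fun g => by rw [← h g]; exact Complex.ofReal_im _
  have hrk : Module.finrank ℂ (formSpace Y) = 1 := by
    have e := finrank_formSpace Y
    have e2 : (Nat.card G : ℂ)⁻¹ * ∑ g : G, (Y g).trace ^ 2 = 1 := by
      rw [← norm_eq_one hρ]
      simp only [htr, sq]
      refine congrArg _ (Finset.sum_congr rfl fun g _ => ?_)
      rw [← conj_eq_inv, Complex.conj_eq_iff_im.2 (hre g)]
    rw [e] at e2
    exact_mod_cast e2
  have hct : ∀ g, (Y g)ᴴ = (Y g)ᵀ := fun g => by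
    ext i j; simp [hY, Matrix.conjTranspose_apply]
  have hMem : herm Y ∈ formSpace Y := fun g => by rw [← hct, herm_invariant]
  have hs : (herm Y)ᵀ = (1 : ℂ) • herm Y := by
    rw [one_smul, herm, Matrix.transpose_sum]
    simp [hct, Matrix.transpose_mul]
  have h0 : herm Y ≠ 0 := by
    intro e
    have hu : IsUnit (0 : Matrix (Fin m) (Fin m) ℂ) := e ▸ (herm_posDef Y).isUnit
    haveI := subsingleton_of_zero_eq_one (isUnit_zero_iff.1 hu)
    have h00 : Module.finrank ℂ (formSpace Y) = 0 := Module.finrank_zero_of_subsingleton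
    omega
  have := sum_trace_sq_eq_eps Y hMem h0 hrk hs
  simpa only [indicator, htr] using this

end CfsgLib.FrobSchur
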