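import Cfsg.Agent.Chars.FrobSchur.Basic

/-!
# Transfer to representations on arbitrary finite-dimensional spaces
-/

set_option autoImplicit false

namespace CfsgLib.FrobSchur

open Cfsg

variable {G : Type*} [Group G] {V : Type*} [AddCommGroup V] [Module ℂ V] [FiniteDimensional ℂ V]

/-- The representation in coordinates. -/
noncomputable def coordRep (ρ : Representation ℂ G V) :
    Representation ℂ G (Fin (Module.finrank ℂ V) → ℂ) :=
  (Module.finBasis ℂ V).equivFun.conjAlgEquiv ℂ |>.toAlgHom.toMonoidHom.comp ρ

theorem coordRep_apply (ρ : Representation ℂ G V) (g : G) (v : V) :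
    coordRep ρ g ((Module.finBasis ℂ V).equivFun v) = (Module.finBasis ℂ V).equivFun (ρ g v) := by
  show (Module.finBasis ℂ V).equivFun (ρ g ((Module.finBasis ℂ V).equivFun.symm
    ((Module.finBasis ℂ V).equivFun v))) = _
  rw [LinearEquiv.symm_apply_apply]

theorem coordRep_character (ρ : Representation ℂ G V) : (coordRep ρ).character = ρ.character := by
  funext g
  exact LinearMap.trace_conj' (ρ g) (Module.finBasis ℂ V).equivFun

theorem coordRep_irreducible (ρ : Representation ℂ G V) (hρ : ρ.IsIrreducible) :
    (coordRep ρ).IsIrreducible := by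
  set e := (Module.finBasis ℂ V).equivFun
  have hmap : ∀ (S : Subrepresentation ρ) (g : G), ∀ w ∈ S.toSubmodule.map e.toLinearMap,
      coordRep ρ g w ∈ S.toSubmodule.map e.toLinearMap := by
    rintro S g _ ⟨v, hv, rfl⟩
    exact ⟨ρ g v, S.apply_mem_toSubmodule g hv, (coordRep_apply ρ g v).symm⟩
  have hcomap : ∀ (S : Subrepresentation (coordRep ρ)) (g : G),
      ∀ v ∈ S.toSubmodule.comap e.toLinearMap, ρ g v ∈ S.toSubmodule.comap e.toLinearMap := by
    intro S g v hv
    show e (ρ g v) ∈ S.toSubmodule
    rw [← coordRep_apply]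
    exact S.apply_mem_toSubmodule g hv
  let iso : Subrepresentation ρ ≃o Subrepresentation (coordRep ρ) :=
    { toFun := fun S => ⟨S.toSubmodule.map e.toLinearMap, fun g w hw => hmap S g w hw⟩
      invFun := fun S => ⟨S.toSubmodule.comap e.toLinearMap, fun g v hv => hcomap S g v hv⟩
      left_inv := fun S => Subrepresentation.toSubmodule_injective
        (Submodule.comap_map_eq_of_injective e.injective _)
      right_inv := fun S => Subrepresentation.toSubmodule_injective
        (Submodule.map_comap_eq_of_surjective e.surjective _)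
      map_rel_iff' := fun {S T} => Submodule.map_le_map_iff_of_injective e.injective _ _ }
  haveI := hρ
  exact iso.symm.isSimpleOrder

theorem rep_indicator_trichotomy [Fintype G] (ρ : Representation ℂ G V) (hρ : ρ.IsIrreducible) :
    (indicator ρ.character = 0 ∨ indicator ρ.character = 1 ∨ indicator ρ.character = -1) ∧
      (indicator ρ.character = 0 ↔ ∃ s : G, (ρ.character s).im ≠ 0) := by
  rw [← coordRep_character ρ]
  exact ⟨indicator_trichotomy (coordRep_irreducible ρ hρ),
    indicator_eq_zero_iff (coordRep_irreducible ρ hρ)⟩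

end CfsgLib.FrobSchur
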